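import Mathlib.GroupTheory.GroupAction.Quotient
import Mathlib.GroupTheory.Subgroup.Centralizer
import Mathlib.GroupTheory.GroupAction.ConjAct
import Mathlib.GroupTheory.Coset.Card
import Mathlib.Algebra.BigOperators.Finprod
import Mathlib.Data.Set.Card.Arithmetic
import Mathlib.Tactic.Group

/-!
# Class cover (helper849, for `Ω₉(3)`, S2464)

* `card_class` : the conjugacy class of `g` has at least `|G| / c` elements if `|C(g)| ≤ c`;
* `cover` : representatives with bounded centralizers, pairwise not conjugate, and a sum of class sizes `≥ |N|`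
  are all the classes of `N`;
* `cover_key` : the same with an invariant separating the representatives;
* `cover_slack` : the sum may be a little too small.
-/

set_option autoImplicit false

namespace Cfsg.Agent.H849.O9

open Subgroup

variable {G : Type*} [Group G]

/-- the class of `g` -/
def cls (g : G) : Set G := Set.range fun a : G => a * g * a⁻¹

theorem mem_cls {g x : G} : x ∈ cls g ↔ ∃ a, x = a * g * a⁻¹ :=
  ⟨fun ⟨a, h⟩ => ⟨a, h.symm⟩, fun ⟨a, h⟩ => ⟨a, h.symm⟩⟩

theorem card_class [Finite G] (g : G) : (cls g).ncard * Nat.card ↥(centralizer ({g} : Set G)) = Nat.card G := by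
  have h1 : (cls g).ncard = Nat.card (ConjAct G ⧸ MulAction.stabilizer (ConjAct G) g) := by
    rw [← Nat.card_congr (MulAction.orbitEquivQuotientStabilizer (ConjAct G) g), ← Nat.card_coe_set_eq]
    have h2 : cls g = MulAction.orbit (ConjAct G) g := by
      ext x
      rw [mem_cls, MulAction.mem_orbit_iff]
      constructor
      · rintro ⟨a, rfl⟩
        exact ⟨ConjAct.toConjAct a, by rw [ConjAct.toConjAct_smul]⟩
      · rintro ⟨a, ha⟩
        exact ⟨ConjAct.ofConjAct a, by rw [← ha, ConjAct.smul_def]⟩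
    rw [h2]
  have h3 : Nat.card ↥(centralizer ({g} : Set G)) = Nat.card ↥(MulAction.stabilizer (ConjAct G) g) := by
    refine Nat.card_congr ⟨fun c => ⟨ConjAct.toConjAct c.1, ?_⟩, fun c => ⟨ConjAct.ofConjAct c.1, ?_⟩, fun _ => rfl,
      fun _ => rfl⟩
    · rw [MulAction.mem_stabilizer_iff, ConjAct.toConjAct_smul, mul_inv_eq_iff_eq_mul]
      exact mem_centralizer_singleton_iff.1 c.2
    · have h := MulAction.mem_stabilizer_iff.1 c.2
      rw [ConjAct.smul_def, mul_inv_eq_iff_eq_mul] at h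
      exact mem_centralizer_singleton_iff.2 h
  rw [h1, h3, ← Subgroup.card_eq_card_quotient_mul_card_subgroup]
  rfl

theorem le_card_class [Finite G] {g : G} {c : ℕ} (hc : Nat.card ↥(centralizer ({g} : Set G)) ≤ c) :
    Nat.card G / c ≤ (cls g).ncard := by
  have h := card_class g
  rcases Nat.eq_zero_or_pos c with h0 | h0
  · rw [h0, Nat.div_zero]
    exact Nat.zero_le _
  · refine Nat.div_le_of_le_mul ?_
    rw [← h, mul_comm]
    exact Nat.mul_le_mul_right _ hc

theorem disjoint_cls {g h : G} (hn : ∀ a, a * g * a⁻¹ ≠ h) : Disjoint (cls g) (cls h) := by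
  rw [Set.disjoint_left]
  intro x hx hy
  obtain ⟨a, rfl⟩ := mem_cls.1 hx
  obtain ⟨b, hb⟩ := mem_cls.1 hy
  refine hn (b⁻¹ * a) ?_
  calc b⁻¹ * a * g * (b⁻¹ * a)⁻¹ = b⁻¹ * (a * g * a⁻¹) * b := by group
    _ = h := by rw [hb]; group

/-- **The class cover with slack.** -/
theorem cover_slack [Finite G] (N : Subgroup G) {n : ℕ} (g : Fin n → G) (c : Fin n → ℕ)
    (hg : ∀ i a, a * g i * a⁻¹ ∈ N) (hc : ∀ i, Nat.card ↥(centralizer ({g i} : Set G)) ≤ c i)
    (hne : ∀ i j, i ≠ j → ∀ a, a * g i * a⁻¹ ≠ g j) {m : ℕ}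
    (hm : ∀ x ∈ N, (∀ i a, a * g i * a⁻¹ ≠ x) → (∀ a, a * x * a⁻¹ ∈ N) ∧ m ≤ (cls x).ncard)
    (hs : Nat.card N < (∑ i, Nat.card G / c i) + m) : ∀ x ∈ N, ∃ i a, x = a * g i * a⁻¹ := by
  classical
  intro x hx
  by_contra hcon
  have hx' : ∀ i a, a * g i * a⁻¹ ≠ x := fun i a h => hcon ⟨i, a, h.symm⟩
  obtain ⟨hxN, hxm⟩ := hm x hx hx'
  have hfin : Finite G := inferInstance
  have := Fintype.ofFinite G
  have hU : (⋃ i, cls (g i)).ncard = ∑ i, (cls (g i)).ncard := by
    have h := Set.ncard_iUnion_of_finite (s := fun i => cls (g i)) (fun i => Set.toFinite _)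
      (fun i j hij => disjoint_cls (hne i j hij))
    rw [h, finsum_eq_sum_of_fintype]
  have hD : Disjoint (⋃ i, cls (g i)) (cls x) := by
    rw [Set.disjoint_iUnion_left]
    exact fun i => disjoint_cls (hx' i)
  have hsub : (⋃ i, cls (g i)) ∪ cls x ⊆ (N : Set G) := by
    refine Set.union_subset (Set.iUnion_subset fun i y hy => ?_) fun y hy => ?_
    · obtain ⟨a, rfl⟩ := mem_cls.1 hy
      exact hg i a
    · obtain ⟨a, rfl⟩ := mem_cls.1 hy
      exact hxN a
  have h1 := Set.ncard_le_ncard hsub (Set.toFinite _)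
  rw [Set.ncard_union_eq hD (Set.toFinite _) (Set.toFinite _), hU] at h1
  have h2 : ∑ i, Nat.card G / c i ≤ ∑ i, (cls (g i)).ncard := Finset.sum_le_sum fun i _ => le_card_class (hc i)
  have h3 : (N : Set G).ncard = Nat.card N := (Nat.card_coe_set_eq _).symm
  omega

theorem one_le_cls [Finite G] (x : G) : 1 ≤ (cls x).ncard :=
  (Set.ncard_pos (Set.toFinite _)).2 ⟨x, mem_cls.2 ⟨1, by group⟩⟩

/-- **The class cover.** -/
theorem cover [Finite G] (N : Subgroup G) (hN : ∀ a, ∀ x ∈ N, a * x * a⁻¹ ∈ N) {n : ℕ} (g : Fin n → G) (c : Fin n → ℕ)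
    (hg : ∀ i, g i ∈ N) (hc : ∀ i, Nat.card ↥(centralizer ({g i} : Set G)) ≤ c i)
    (hne : ∀ i j, i ≠ j → ∀ a, a * g i * a⁻¹ ≠ g j)
    (hs : Nat.card N ≤ ∑ i, Nat.card G / c i) : ∀ x ∈ N, ∃ i a, x = a * g i * a⁻¹ :=
  cover_slack N g c (fun i a => hN a _ (hg i)) hc hne (m := 1)
    (fun x hx _ => ⟨fun a => hN a x hx, one_le_cls x⟩) (Nat.lt_succ_of_le hs)

/-- **The class cover**, the representatives are separated by an invariant. -/
theorem cover_key [Finite G] (N : Subgroup G) (hN : ∀ a, ∀ x ∈ N, a * x * a⁻¹ ∈ N) {n : ℕ} (g : Fin n → G)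
    (c : Fin n → ℕ) (hg : ∀ i, g i ∈ N) (hc : ∀ i, Nat.card ↥(centralizer ({g i} : Set G)) ≤ c i)
    {κ : Type*} (key : G → κ) (hk : ∀ a x, key (a * x * a⁻¹) = key x) (hinj : Function.Injective fun i => key (g i))
    (hs : Nat.card N ≤ ∑ i, Nat.card G / c i) : ∀ x ∈ N, ∃ i a, x = a * g i * a⁻¹ :=
  cover N hN g c hg hc (fun i j hij a h => hij (hinj (show key (g i) = key (g j) by rw [← h, hk]))) hs

/-- the inductive form for an invariant property -/
theorem forall_of_key [Finite G] (N : Subgroup G) (hN : ∀ a, ∀ x ∈ N, a * x * a⁻¹ ∈ N) {n : ℕ} (g : Fin n → G)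
    (c : Fin n → ℕ) (hg : ∀ i, g i ∈ N) (hc : ∀ i, Nat.card ↥(centralizer ({g i} : Set G)) ≤ c i)
    {κ : Type*} (key : G → κ) (hk : ∀ a x, key (a * x * a⁻¹) = key x) (hinj : Function.Injective fun i => key (g i))
    (hs : Nat.card N ≤ ∑ i, Nat.card G / c i) {P : G → Prop} (hP : ∀ a x, P x → P (a * x * a⁻¹))
    (h : ∀ i, P (g i)) : ∀ x ∈ N, P x := by
  intro x hx
  obtain ⟨i, a, rfl⟩ := cover_key N hN g c hg hc key hk hinj hs x hx
  exact hP a _ (h i)

end Cfsg.Agent.H849.O9
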